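import Cfsg.Agent.Lib.H18.CharQuot
import Cfsg.Agent.Lib.H81.DegreeCount

/-!
# Small lemmas on ordinary characters: kernels of constituents, constituents of degree prime to p
-/

set_option autoImplicit false
open Cfsg H18.CharBasic H18.CharOrtho H18.CharInd H18.CharQuot
open scoped ComplexConjugate

namespace H84.CharMisc

universe u v
variable {G : Type u} [Group G]

/-- If the sum of two characters takes its degree at `y`, so does the first summand. -/
theorem add_ker [Finite G] {χ ψ : G → ℂ} (hχ : IsCharacter G χ) (hψ : IsCharacter G ψ) {y : G}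
    (h : (χ + ψ) y = (χ + ψ) 1) : χ y = χ 1 := by
  have h1 := char_norm_le hχ y
  have h2 := char_norm_le hψ y
  have h3 : (χ y).re + (ψ y).re = (χ 1).re + (ψ 1).re := by
    have := congrArg Complex.re h
    simpa using this
  have h4 : (χ y).re ≤ (χ 1).re := (Complex.re_le_norm _).trans h1
  have h5 : (ψ y).re ≤ (ψ 1).re := (Complex.re_le_norm _).trans h2
  have h6 : (χ y).re = (χ 1).re := by linarith
  obtain ⟨n, hn⟩ := exists_degree hχ
  have h7 : ‖χ y‖ ≤ (χ y).re := by rw [h6]; exact h1
  have h8 : (χ y).im = 0 := by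
    have h9 : ‖χ y‖ ^ 2 ≤ (χ y).re ^ 2 := by
      apply pow_le_pow_left₀ (norm_nonneg _) h7
    rw [← Complex.normSq_eq_norm_sq, Complex.normSq_apply] at h9
    nlinarith [sq_nonneg (χ y).im]
  apply Complex.ext h6
  rw [h8, hn]; simp

/-- The kernel of a character is contained in the kernel of its constituents. -/
theorem constituent_ker [Fintype G] {χ ψ : G → ℂ} (hχ : IsCharacter G χ) (hψ : IsIrrCharacter G ψ)
    (hne : classInner χ ψ ≠ 0) {y : G} (h : χ y = χ 1) : ψ y = ψ 1 := by
  have h1 := isCharacter_sub_constituent hχ hψ hne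
  apply add_ker (isCharacter_of_isIrr hψ) h1
  simpa using h

/-- A character of degree prime to `p` has an irreducible constituent of degree prime to `p`. -/
theorem exists_constituent_not_dvd [Fintype G] (p : ℕ) {χ : G → ℂ} (hχ : IsCharacter G χ)
    (hp : ¬ p ∣ charDegree χ) :
    ∃ ψ : G → ℂ, IsIrrCharacter G ψ ∧ classInner χ ψ ≠ 0 ∧ ¬ p ∣ charDegree ψ := by
  classical
  by_contra hcon
  push Not at hcon
  apply hp
  have := Fintype.ofFinite (IrrCharacter G)
  have h1 := congrFun (mem_classFun_expand (isClassFunction_of_isCharacter hχ)) 1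
  choose n hn using fun ψ : IrrCharacter G => inner_char_natCast hχ (isCharacter_of_isIrr ψ.2)
  have h2 : (charDegree χ : ℂ) = ((∑ ψ : IrrCharacter G, n ψ * charDegree (ψ : G → ℂ) : ℕ) : ℂ) := by
    rw [← H81.DegreeCount.char_one_eq hχ, h1, Finset.sum_apply]
    push_cast
    refine Finset.sum_congr rfl fun ψ _ => ?_
    rw [Pi.smul_apply, smul_eq_mul, hn, H81.DegreeCount.irr_one_eq]
  have h3 : charDegree χ = ∑ ψ : IrrCharacter G, n ψ * charDegree (ψ : G → ℂ) := by exact_mod_cast h2
  rw [h3]
  refine Finset.dvd_sum fun ψ _ => ?_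
  by_cases h0 : n ψ = 0
  · rw [h0, zero_mul]; exact dvd_zero _
  · exact dvd_mul_of_dvd_right (hcon ψ ψ.2 (by rw [hn]; exact_mod_cast h0)) _

end H84.CharMisc
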