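import Mathlib

/-!
Largest prime divisors of binomial coefficients (a weak form of the theorem of Sylvester and Schur).
-/

set_option autoImplicit false

namespace H84.DR1

/-- the number of primes up to `n` -/
def pc (n : ℕ) : ℕ := ((Finset.range (n + 1)).filter Nat.Prime).card

theorem pc_succ (n : ℕ) : pc (n + 1) = pc n + if (n + 1).Prime then 1 else 0 := by
  unfold pc
  rw [Finset.range_add_one, Finset.filter_insert]
  split_ifs with h
  · rw [Finset.card_insert_of_notMem]
    simp
  · rfl

theorem pc_mono {a b : ℕ} (h : a ≤ b) : pc a ≤ pc b := by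
  unfold pc
  apply Finset.card_le_card
  apply Finset.filter_subset_filter
  apply Finset.range_mono
  omega

theorem pc_two {n : ℕ} (hn : 2 ≤ n) : pc (n + 2) ≤ pc n + 1 := by
  rw [show n + 2 = (n + 1) + 1 from rfl, pc_succ, pc_succ]
  by_cases h1 : (n + 1).Prime
  · have h2 : ¬ (n + 1 + 1).Prime := by
      intro h2
      rcases h1.eq_two_or_odd' with h | h
      · omega
      · rcases h2.eq_two_or_odd' with h' | h'
        · omega
        · rcases h with ⟨a, ha⟩
          rcases h' with ⟨b, hb⟩
          omega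
    rw [if_pos h1, if_neg h2]
  · rw [if_neg h1]
    split_ifs <;> omega

theorem pc_le {n : ℕ} (hn : 8 ≤ n) : 2 * pc n ≤ n := by
  have key : ∀ k : ℕ, 2 * pc (8 + 2 * k) ≤ 8 + 2 * k ∧ 2 * pc (9 + 2 * k) ≤ 9 + 2 * k := by
    intro k
    induction k with
    | zero => constructor <;> decide
    | succ k ih =>
      constructor
      · have := pc_two (n := 8 + 2 * k) (by omega)
        rw [show 8 + 2 * (k + 1) = 8 + 2 * k + 2 by ring]
        omega
      · have := pc_two (n := 9 + 2 * k) (by omega)
        rw [show 9 + 2 * (k + 1) = 9 + 2 * k + 2 by ring]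
        omega
  rcases Nat.even_or_odd n with h | h
  · obtain ⟨a, ha⟩ := h
    obtain ⟨k, rfl⟩ : ∃ k, n = 8 + 2 * k := ⟨a - 4, by omega⟩
    exact (key k).1
  · obtain ⟨a, ha⟩ := h
    obtain ⟨k, rfl⟩ : ∃ k, n = 9 + 2 * k := ⟨a - 4, by omega⟩
    exact (key k).2

theorem pow_lt_choose {m s : ℕ} (hs : 2 ≤ s) (hm : s < m) : m ^ s < s ^ s * m.choose s := by
  have h1 : s ^ s * m.descFactorial s = ∏ i ∈ Finset.range s, s * (m - i) := by
    rw [Finset.prod_mul_distrib, Finset.prod_const, Finset.card_range, Nat.descFactorial_eq_prod_range]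
  have h2 : m ^ s * s.factorial = ∏ i ∈ Finset.range s, m * (s - i) := by
    rw [Finset.prod_mul_distrib, Finset.prod_const, Finset.card_range, ← Nat.descFactorial_self,
      Nat.descFactorial_eq_prod_range]
  have h3 : m ^ s * s.factorial < s ^ s * m.descFactorial s := by
    rw [h1, h2]
    apply Finset.prod_lt_prod
    · intro i hi
      rw [Finset.mem_range] at hi
      exact Nat.mul_pos (by omega) (by omega)
    · intro i hi
      rw [Finset.mem_range] at hi
      obtain ⟨a, rfl⟩ := Nat.exists_eq_add_of_lt hi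
      obtain ⟨b, rfl⟩ := Nat.exists_eq_add_of_lt hm
      rw [show i + a + 1 - i = a + 1 by omega, show i + a + 1 + b + 1 - i = a + 1 + b + 1 by omega]
      nlinarith [Nat.zero_le (i * b)]
    · refine ⟨1, Finset.mem_range.2 (by omega), ?_⟩
      obtain ⟨a, rfl⟩ : ∃ a, s = a + 1 := ⟨s - 1, by omega⟩
      obtain ⟨b, rfl⟩ := Nat.exists_eq_add_of_lt hm
      rw [show a + 1 - 1 = a by omega, show a + 1 + b + 1 - 1 = a + b + 1 by omega]
      nlinarith
  rw [Nat.descFactorial_eq_factorial_mul_choose] at h3
  have h4 : 0 < s.factorial := Nat.factorial_pos s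
  have h5 : s.factorial * (m ^ s) < s.factorial * (s ^ s * m.choose s) := by
    calc s.factorial * (m ^ s) = m ^ s * s.factorial := by ring
      _ < _ := h3
      _ = _ := by ring
  exact Nat.lt_of_mul_lt_mul_left h5

theorem aux7 (x a b c d e f : ℕ) (h1 : 20 * x ≤ a * f) (h2 : 20 * x ≤ b * e) (h3 : 20 * x ≤ c * d) (hx : 0 < x) :
    5040 * x ^ 4 < a * (b * (c * (d * (e * (f * (x * 1)))))) := by
  have h4 : (20 * x) * (20 * x) * (20 * x) ≤ (a * f) * (b * e) * (c * d) :=
    Nat.mul_le_mul (Nat.mul_le_mul h1 h2) h3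
  have h5 : 0 < x ^ 4 := by positivity
  have h6 : (20 * x) * (20 * x) * (20 * x) * x = 8000 * x ^ 4 := by ring
  have h7 : (a * f) * (b * e) * (c * d) * x = a * (b * (c * (d * (e * (f * (x * 1)))))) := by ring
  have h8 := Nat.mul_le_mul_right x h4
  rw [h6, h7] at h8
  omega

theorem aux5 (x a b c d : ℕ) (h1 : 20 * x ≤ a * d) (h2 : 20 * x ≤ b * c) (hx : 0 < x) :
    120 * x ^ 3 < a * (b * (c * (d * (x * 1)))) := by
  have h4 : (20 * x) * (20 * x) ≤ (a * d) * (b * c) := Nat.mul_le_mul h1 h2
  have h5 : 0 < x ^ 3 := by positivity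
  have h6 : (20 * x) * (20 * x) * x = 400 * x ^ 3 := by ring
  have h7 : (a * d) * (b * c) * x = a * (b * (c * (d * (x * 1)))) := by ring
  have h8 := Nat.mul_le_mul_right x h4
  rw [h6, h7] at h8
  omega

/-- binomial coefficients are bigger than the power of `m` given by the number of primes -/
theorem claim {m s : ℕ} (hs : 2 ≤ s) (hm5 : 5 ≤ m) (hsm : s ^ 2 ≤ m) : m ^ pc s < m.choose s := by
  have hlt : s < m := by nlinarith
  by_cases h8 : 2 * pc s ≤ s
  · have h1 := pow_lt_choose hs hlt
    have h2 : (m ^ s) ^ 2 < (s ^ s * m.choose s) ^ 2 := Nat.pow_lt_pow_left h1 (by norm_num)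
    have h3 : (s ^ s * m.choose s) ^ 2 ≤ m ^ s * (m.choose s) ^ 2 := by
      have h4 : (s ^ s) ^ 2 ≤ m ^ s := by
        rw [← pow_mul, mul_comm s 2, pow_mul]
        exact Nat.pow_le_pow_left hsm s
      rw [mul_pow]
      exact Nat.mul_le_mul_right _ h4
    have h4 : m ^ s * m ^ s < m ^ s * (m.choose s) ^ 2 := by
      calc m ^ s * m ^ s = (m ^ s) ^ 2 := by ring
        _ < _ := h2
        _ ≤ _ := h3
    have h5 := Nat.lt_of_mul_lt_mul_left h4
    have h6 : (m ^ pc s) ^ 2 ≤ m ^ s := by
      rw [← pow_mul, mul_comm]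
      exact Nat.pow_le_pow_right (by omega) h8
    have h7 : (m ^ pc s) ^ 2 < (m.choose s) ^ 2 := lt_of_le_of_lt h6 h5
    exact lt_of_pow_lt_pow_left₀ 2 (Nat.zero_le _) h7
  · -- s = 3, 5, 7
    have hs8 : s < 8 := by
      by_contra h
      push Not at h
      exact h8 (pc_le h)
    have hd := Nat.descFactorial_eq_factorial_mul_choose m s
    interval_cases s
    · exact absurd (by decide) h8
    · -- 3
      have hp : pc 3 = 2 := by decide
      rw [hp]
      obtain ⟨t, rfl⟩ : ∃ t, m = t + 9 := ⟨m - 9, by omega⟩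
      simp only [Nat.descFactorial_succ, Nat.descFactorial_zero, Nat.factorial] at hd
      rw [show t + 9 - 2 = t + 7 by omega, show t + 9 - 1 = t + 8 by omega, show t + 9 - 0 = t + 9 by omega] at hd
      nlinarith [Nat.zero_le t]
    · exact absurd (by decide) h8
    · -- 5
      have hp : pc 5 = 3 := by decide
      rw [hp]
      obtain ⟨t, rfl⟩ : ∃ t, m = t + 25 := ⟨m - 25, by omega⟩
      simp only [Nat.descFactorial_succ, Nat.descFactorial_zero, Nat.factorial] at hd
      rw [show t + 25 - 4 = t + 21 by omega, show t + 25 - 3 = t + 22 by omega, show t + 25 - 2 = t + 23 by omega,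
        show t + 25 - 1 = t + 24 by omega, show t + 25 - 0 = t + 25 by omega] at hd
      have h1 : 120 * (t + 25) ^ 3 < (t + 21) * ((t + 22) * ((t + 23) * ((t + 24) * ((t + 25) * 1)))) := by
        exact aux5 (t + 25) (t + 21) (t + 22) (t + 23) (t + 24) (by nlinarith) (by nlinarith) (by omega)
      rw [hd] at h1
      norm_num at h1
      omega
    · exact absurd (by decide) h8
    · -- 7
      have hp : pc 7 = 4 := by decide
      rw [hp]
      obtain ⟨t, rfl⟩ : ∃ t, m = t + 49 := ⟨m - 49, by omega⟩
      simp only [Nat.descFactorial_succ, Nat.descFactorial_zero, Nat.factorial] at hd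
      rw [show t + 49 - 6 = t + 43 by omega, show t + 49 - 5 = t + 44 by omega, show t + 49 - 4 = t + 45 by omega,
        show t + 49 - 3 = t + 46 by omega, show t + 49 - 2 = t + 47 by omega,
        show t + 49 - 1 = t + 48 by omega, show t + 49 - 0 = t + 49 by omega] at hd
      have h1 : 5040 * (t + 49) ^ 4 <
          (t + 43) * ((t + 44) * ((t + 45) * ((t + 46) * ((t + 47) * ((t + 48) * ((t + 49) * 1)))))) := by
        exact aux7 (t + 49) (t + 43) (t + 44) (t + 45) (t + 46) (t + 47) (t + 48) (by nlinarith) (by nlinarith)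
          (by nlinarith) (by omega)
      rw [hd] at h1
      norm_num at h1
      omega

/-- upper bound for binomial coefficients with small prime divisors -/
theorem choose_le {m k s : ℕ} (hm : 0 < m) (hkm : k ≤ m) (h : ∀ p : ℕ, p.Prime → p ∣ m.choose k → p ≤ s) :
    m.choose k ≤ m ^ pc s := by
  have h0 : m.choose k ≠ 0 := (Nat.choose_pos hkm).ne'
  have h1 := Nat.prod_factorization_pow_eq_self h0
  have h2 : (m.choose k).factorization.prod (fun p e => p ^ e) ≤ ∏ p ∈ (m.choose k).factorization.support, m := by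
    unfold Finsupp.prod
    apply Finset.prod_le_prod'
    intro p _
    exact Nat.pow_factorization_choose_le hm
  rw [h1, Finset.prod_const] at h2
  refine h2.trans (Nat.pow_le_pow_right hm ?_)
  unfold pc
  apply Finset.card_le_card
  intro p hp
  rw [Nat.support_factorization, Nat.mem_primeFactors] at hp
  rw [Finset.mem_filter, Finset.mem_range]
  exact ⟨by have := h p hp.1 hp.2.1; omega, hp.1⟩

theorem choose_mono_half {m a : ℕ} : ∀ b : ℕ, a ≤ b → 2 * b ≤ m → m.choose a ≤ m.choose b := by
  intro b hab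
  induction b, hab using Nat.le_induction with
  | base => intro _; exact le_rfl
  | succ b hab ih =>
    intro h
    exact (ih (by omega)).trans (Nat.choose_le_succ_of_lt_half_left (by omega))

/-- the main number theoretic lemma: the largest prime divisor sees the last digits -/
theorem main {m k r : ℕ} (hm : 5 ≤ m) (hk : 1 ≤ k) (hkm : 2 * k ≤ m) (hr : r.Prime) (hrd : r ∣ m.choose k)
    (hmax : ∀ p : ℕ, p.Prime → p ∣ m.choose k → p ≤ r) : m % r < k % r := by
  by_contra hcon
  push Not at hcon
  have := Fact.mk hr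
  have hr2 := hr.two_le
  have hndvd : ∀ a b : ℕ, b ≤ a → a < r → ¬ r ∣ a.choose b := by
    intro a b hba har hd
    have h1 : a.choose b ∣ a.factorial := by
      rw [← Nat.choose_mul_factorial_mul_factorial hba, mul_assoc]
      exact dvd_mul_right _ _
    have h2 := (hr.dvd_factorial).1 (hd.trans h1)
    omega
  have hlucas := Choose.choose_modEq_choose_mod_mul_choose_div_nat (p := r) (n := m) (k := k)
  have h0 : r ∣ (m % r).choose (k % r) * (m / r).choose (k / r) := (hlucas.dvd_iff dvd_rfl).1 hrd
  have h1 : r ∣ (m / r).choose (k / r) := by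
    rcases hr.dvd_mul.1 h0 with h | h
    · exact absurd h (hndvd _ _ hcon (Nat.mod_lt _ hr.pos))
    · exact h
  have hrk : r ≤ k := by
    by_contra h
    push Not at h
    rw [Nat.div_eq_of_lt h, Nat.choose_zero_right] at h1
    exact hr.one_lt.ne' (Nat.dvd_one.1 h1)
  have hrm : r ^ 2 ≤ m := by
    by_contra h
    push Not at h
    apply hndvd (m / r) (k / r) (Nat.div_le_div_right (by omega)) _ h1
    rw [Nat.div_lt_iff_lt_mul hr.pos]
    nlinarith
  -- the bound
  set s := min k (Nat.sqrt m) with hs
  have hrs : r ≤ s := by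
    rw [hs, le_min_iff]
    refine ⟨hrk, ?_⟩
    rw [Nat.le_sqrt]
    nlinarith
  have hsm : s ^ 2 ≤ m := by
    have h2 : s ≤ Nat.sqrt m := min_le_right _ _
    have h3 := Nat.sqrt_le m
    nlinarith
  have hsk : s ≤ k := min_le_left _ _
  have h2 := choose_le (by omega : 0 < m) (by omega : k ≤ m) (s := s) (fun p hp hd => (hmax p hp hd).trans hrs)
  have h3 := claim (by omega : 2 ≤ s) hm hsm
  have h4 := choose_mono_half k hsk hkm
  omega

/-- binomial coefficients that are powers of two -/
theorem main_two {m k : ℕ} (hm : 5 ≤ m) (hk : 1 ≤ k) (hkm : 2 * k ≤ m)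
    (hmax : ∀ p : ℕ, p.Prime → p ∣ m.choose k → p ≤ 2) : k = 1 ∧ 4 ∣ m := by
  have h1 : m.choose k ≤ m ^ pc 2 := choose_le (by omega) (by omega) hmax
  have hp : pc 2 = 1 := by decide
  rw [hp, pow_one] at h1
  have hk1 : k = 1 := by
    by_contra h
    have h2 := choose_mono_half (m := m) (a := 2) k (by omega) hkm
    rw [Nat.choose_two_right] at h2
    have h3 : m * 4 ≤ m * (m - 1) := Nat.mul_le_mul_left m (by omega)
    have h4 : 2 * m ≤ m * (m - 1) / 2 := by
      rw [Nat.le_div_iff_mul_le (by norm_num)]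
      linarith
    omega
  subst hk1
  refine ⟨rfl, ?_⟩
  rw [Nat.choose_one_right] at hmax
  -- m is a power of two
  have h2 : m = 2 ^ m.factorization 2 := by
    have h3 := Nat.prod_factorization_pow_eq_self (show m ≠ 0 by omega)
    conv_lhs => rw [← h3]
    unfold Finsupp.prod
    rw [Nat.support_factorization]
    have h4 : m.primeFactors ⊆ {2} := by
      intro p hp
      rw [Nat.mem_primeFactors] at hp
      have := hmax p hp.1 hp.2.1
      have := hp.1.two_le
      rw [Finset.mem_singleton]
      omega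
    rw [Finset.prod_subset h4]
    · rw [Finset.prod_singleton]
    · intro x _ hx
      rw [← Nat.support_factorization, Finsupp.notMem_support_iff] at hx
      simp only [hx, pow_zero]
  have h3 : 2 ≤ m.factorization 2 := by
    by_contra h
    have h4 : 2 ^ m.factorization 2 ≤ 2 ^ 1 := Nat.pow_le_pow_right (by norm_num) (by omega)
    rw [← h2] at h4
    omega
  rw [h2]
  exact pow_dvd_pow 2 h3

end H84.DR1
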