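import Mathlib
import Cfsg.Agent.S0713

/-!
Permutations of prime order without fixed `k`-sets; transitive groups with large prime divisors.
-/

set_option autoImplicit false

namespace H84.DR2

open Equiv
open scoped Pointwise

theorem finRotate_pow (r : ℕ) (hr : 2 ≤ r) : finRotate r ^ r = 1 := by
  have h1 := (isCycle_finRotate_of_le hr).orderOf
  rw [support_finRotate_of_le hr, Finset.card_univ, Fintype.card_fin] at h1
  rw [← orderOf_dvd_iff_pow_eq_one, h1]

theorem finRotate_ne (r : ℕ) (hr : 2 ≤ r) (j : Fin r) : finRotate r j ≠ j := by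
  have h1 := support_finRotate_of_le hr
  have h2 := Finset.mem_univ j
  rw [← h1, Equiv.Perm.mem_support] at h2
  exact h2

/-- a permutation with `m / r` cycles of length `r` and `m % r` fixed points -/
theorem exists_perm (m r : ℕ) (hr : r.Prime) (hrm : r ≤ m) (h4 : r = 2 → 4 ∣ m) :
    ∃ c : Perm (Fin m), c ∈ alternatingGroup (Fin m) ∧ orderOf c = r ∧
      (Finset.univ.filter fun x => c x = x).card ≤ m % r := by
  classical
  have hr2 := hr.two_le
  let c1 : Perm (Fin (m / r) × Fin r) := Equiv.prodCongrRight (fun _ => finRotate r)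
  let c0 : Perm ((Fin (m / r) × Fin r) ⊕ Fin (m % r)) := Equiv.sumCongr c1 (Equiv.refl _)
  have hcard : Fintype.card ((Fin (m / r) × Fin r) ⊕ Fin (m % r)) = m := by
    rw [Fintype.card_sum, Fintype.card_prod, Fintype.card_fin, Fintype.card_fin, Fintype.card_fin, mul_comm]
    exact Nat.div_add_mod m r
  let e : ((Fin (m / r) × Fin r) ⊕ Fin (m % r)) ≃ Fin m := Fintype.equivFinOfCardEq hcard
  let c : Perm (Fin m) := e.permCongr c0
  have hc0l : ∀ (i : Fin (m / r)) (j : Fin r), c0 (Sum.inl (i, j)) = Sum.inl (i, finRotate r j) := fun _ _ => rfl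
  have hc0r : ∀ x : Fin (m % r), c0 (Sum.inr x) = Sum.inr x := fun _ => rfl
  have hc0k : ∀ (k : ℕ) (i : Fin (m / r)) (j : Fin r), (c0 ^ k) (Sum.inl (i, j)) = Sum.inl (i, (finRotate r ^ k) j) := by
    intro k i j
    induction k with
    | zero => rfl
    | succ k ih => rw [pow_succ', Perm.mul_apply, ih, hc0l, pow_succ', Perm.mul_apply]
  have hc0rk : ∀ (k : ℕ) (x : Fin (m % r)), (c0 ^ k) (Sum.inr x) = Sum.inr x := by
    intro k x
    induction k with
    | zero => rfl
    | succ k ih => rw [pow_succ', Perm.mul_apply, ih, hc0r]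
  have hc0pow : c0 ^ r = 1 := by
    ext x
    rcases x with ⟨i, j⟩ | x
    · rw [hc0k, finRotate_pow r hr2]; rfl
    · rw [hc0rk]; rfl
  have hcpow : c ^ r = 1 := by
    have h1 : c ^ r = e.permCongrHom (c0 ^ r) := (map_pow e.permCongrHom c0 r).symm
    rw [h1, hc0pow, map_one]
  have hc1 : c ≠ 1 := by
    intro h
    have hpos : 0 < m / r := Nat.div_pos hrm hr.pos
    have h1 : c0 = 1 := by
      apply e.permCongrHom.injective
      rw [map_one]; exact h
    have h2 := hc0l ⟨0, hpos⟩ ⟨0, hr.pos⟩
    rw [h1, Perm.one_apply] at h2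
    have h3 := congrArg Prod.snd (Sum.inl_injective h2)
    exact finRotate_ne r hr2 _ h3.symm
  have hord : orderOf c = r := by
    have := Fact.mk hr
    exact orderOf_eq_prime hcpow hc1
  refine ⟨c, ?_, hord, ?_⟩
  · rw [Equiv.Perm.mem_alternatingGroup]
    by_cases h2 : r = 2
    · have h5 : Perm.sign c = Perm.sign c0 := Perm.sign_permCongr e c0
      have h6 : Perm.sign c0 = Perm.sign c1 * Perm.sign (Equiv.refl (Fin (m % r))) := Perm.sign_sumCongr c1 _
      have h7 : Perm.sign c1 = ∏ _k : Fin (m / r), Perm.sign (finRotate r) := Perm.sign_prodCongrRight _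
      rw [h5, h6, h7, Finset.prod_const, Finset.card_univ, Fintype.card_fin, Perm.sign_refl, mul_one, sign_finRotate]
      obtain ⟨a, ha⟩ := h4 h2
      have h8 : m / r = 2 * a := by rw [h2]; omega
      rw [h8, h2, pow_mul]
      simp
    · have hodd : Odd r := hr.odd_of_ne_two h2
      have h5 : Perm.sign c ^ r = 1 := by rw [← map_pow, hcpow, map_one]
      rcases Int.units_eq_one_or (Perm.sign c) with h6 | h6
      · exact h6
      · rw [h6, hodd.neg_one_pow] at h5
        exact absurd h5 (by decide)
  · -- fixed points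
    have h1 : (Finset.univ.filter fun x => c x = x) ⊆ (Finset.univ : Finset (Fin (m % r))).image (fun y => e (Sum.inr y)) := by
      intro x hx
      have hx' := (Finset.mem_filter.1 hx).2
      have h2 : c0 (e.symm x) = e.symm x := by
        have h3 : c x = e (c0 (e.symm x)) := rfl
        rw [h3] at hx'
        rw [← e.symm_apply_apply (c0 (e.symm x)), hx']
      rw [Finset.mem_image]
      rcases h4' : e.symm x with ⟨i, j⟩ | y
      · rw [h4', hc0l] at h2
        have h3 := congrArg Prod.snd (Sum.inl_injective h2)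
        exact absurd h3 (finRotate_ne r hr2 _)
      · refine ⟨y, Finset.mem_univ _, ?_⟩
        rw [← h4', e.apply_symm_apply]
    calc _ ≤ _ := Finset.card_le_card h1
      _ ≤ (Finset.univ : Finset (Fin (m % r))).card := Finset.card_image_le
      _ = m % r := by rw [Finset.card_univ, Fintype.card_fin]

/-- such permutations stabilize no set whose size has a large residue -/
theorem no_fixed_set {α : Type*} [Fintype α] [DecidableEq α] {r k b : ℕ} (hr : r.Prime) {c : Perm α} (hc : c ^ r = 1)
    (hfix : (Finset.univ.filter fun x => c x = x).card ≤ b) (hk : b < k % r) (Δ : Finset α)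
    (hΔ : Δ.card = k) (hst : ∀ x ∈ Δ, c x ∈ Δ) : False := by
  classical
  have := Fact.mk hr
  let f : Function.End Δ := fun x => ⟨c x, hst x x.2⟩
  have hf : ∀ (n : ℕ) (x : Δ), (((f ^ n) x : Δ) : α) = (c ^ n) x := by
    intro n
    induction n with
    | zero => intro x; rfl
    | succ n ih =>
      intro x
      have h1 : (f ^ (n + 1)) x = f ((f ^ n) x) := by rw [pow_succ']; rfl
      rw [h1, pow_succ', Perm.mul_apply, ← ih x]
  have hf1 : f ^ r ^ 1 = 1 := by
    funext x
    apply Subtype.ext
    rw [hf, pow_one, hc]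
    rfl
  have h1 := Equiv.Perm.card_fixedPoints_modEq (p := r) (n := 1) hf1
  rw [Fintype.card_coe, hΔ] at h1
  have h2 : Fintype.card (Function.fixedPoints f) ≤ b := by
    refine le_trans ?_ hfix
    rw [← Fintype.card_coe]
    apply Fintype.card_le_of_injective
      (fun x : Function.fixedPoints f => (⟨((x : Δ) : α), by
        rw [Finset.mem_filter]
        exact ⟨Finset.mem_univ _, congrArg Subtype.val x.2⟩⟩ : {y // y ∈ Finset.univ.filter fun x => c x = x}))
    intro x y hxy
    apply Subtype.ext
    apply Subtype.ext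
    have hxy' := Subtype.mk.inj hxy
    exact hxy'
  have h3 : k % r = Fintype.card (Function.fixedPoints f) % r := h1
  have h4 := Nat.mod_le (Fintype.card (Function.fixedPoints f)) r
  omega

/-- a transitive group with an element of big prime order is primitive -/
theorem primitive_of_prime {m : ℕ} (K : Subgroup (Perm (Fin m))) (htr : MulAction.IsPretransitive K (Fin m)) {p : ℕ}
    (hp : p.Prime) (hpm : m < 2 * p) (hd : p ∣ Nat.card K) : MulAction.IsPreprimitive K (Fin m) := by
  classical
  have := Fact.mk hp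
  obtain ⟨c, hc⟩ := exists_prime_orderOf_dvd_card' p hd
  have hc' : orderOf (c : Perm (Fin m)) = p := by rw [Subgroup.orderOf_coe, hc]
  have hcyc : (c : Perm (Fin m)).IsCycle := by
    apply Perm.isCycle_of_prime_order'
    · rw [hc']; exact hp
    · rw [hc', Fintype.card_fin]; exact hpm
  have hsupp : (c : Perm (Fin m)).support.card = p := by rw [← hcyc.orderOf, hc']
  obtain ⟨x, hx⟩ : ∃ x, x ∈ (c : Perm (Fin m)).support := by
    apply Finset.card_pos.1
    rw [hsupp]; exact hp.pos
  apply MulAction.IsPreprimitive.of_isTrivialBlock_base x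
  intro B hxB hB
  by_cases hss : B.Subsingleton
  · exact Or.inl hss
  right
  rw [Set.not_subsingleton_iff] at hss
  obtain ⟨y, hyB, hyx⟩ := hss.exists_ne x
  -- `c` stabilizes `B`
  have hcB : c • B = B := by
    by_cases hy : y ∈ (c : Perm (Fin m)).support
    · obtain ⟨i, hi⟩ := hcyc.sameCycle (Perm.mem_support.1 hx) (Perm.mem_support.1 hy)
      have h1 : c ^ i • B = B := by
        apply hB.smul_eq_of_mem (a := x) hxB
        have h3 : (c ^ i) • x = y := by
          rw [← hi]
          show ((c ^ i : K) : Perm (Fin m)) x = _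
          rw [Subgroup.coe_zpow]
        rw [h3]; exact hyB
      -- `c` is a power of `c ^ i`
      have hi0 : ¬ (p : ℤ) ∣ i := by
        intro hdi
        have h3 : c ^ i = 1 := by
          rw [← orderOf_dvd_iff_zpow_eq_one, hc]; exact hdi
        apply hyx
        rw [← hi]
        have h4 : ((c : Perm (Fin m)) ^ i) = 1 := by
          rw [← Subgroup.coe_zpow, h3]; rfl
        rw [h4]; rfl
      have hcop : IsCoprime i (p : ℤ) := by
        rw [isCoprime_comm]
        exact (Nat.prime_iff_prime_int.1 hp).coprime_iff_not_dvd.2 hi0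
      obtain ⟨a, b, hab⟩ := hcop
      have h5 : c = (c ^ i) ^ a := by
        rw [← zpow_mul]
        conv_lhs => rw [← zpow_one c, ← hab]
        have h6 : c ^ p = 1 := by rw [← hc]; exact pow_orderOf_eq_one c
        have h7 : c ^ (b * (p : ℤ)) = 1 := by rw [mul_comm, zpow_mul, zpow_natCast, h6, one_zpow]
        rw [zpow_add, h7, mul_one, mul_comm]
      have h6 : ∀ g : K, g • B = B → ∀ n : ℤ, g ^ n • B = B := by
        intro g hg n
        have h7 : g ∈ MulAction.stabilizer K B := hg
        exact (MulAction.stabilizer K B).zpow_mem h7 n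
      rw [h5]
      exact h6 _ h1 a
    · apply hB.smul_eq_of_mem (a := y) hyB
      have h3 : c • y = y := Perm.notMem_support.1 hy
      rw [h3]; exact hyB
  -- the support is contained in `B`
  have hsub : ((c : Perm (Fin m)).support : Set (Fin m)) ⊆ B := by
    intro z hz
    obtain ⟨i, hi⟩ := hcyc.sameCycle (Perm.mem_support.1 hx) (Perm.mem_support.1 hz)
    have h7 : c ∈ MulAction.stabilizer K B := hcB
    have h8 : c ^ i • B = B := (MulAction.stabilizer K B).zpow_mem h7 i
    rw [← h8, ← hi]
    refine ⟨x, hxB, ?_⟩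
    show ((c ^ i : K) : Perm (Fin m)) x = _
    rw [Subgroup.coe_zpow]
  apply hB.eq_univ_of_card_lt
  rw [Nat.card_eq_fintype_card, Fintype.card_fin]
  have h9 : p ≤ B.ncard := by
    rw [← hsupp, ← Set.ncard_coe_finset]
    exact Set.ncard_le_ncard hsub
  omega

end H84.DR2
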