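import Mathlib
import Cfsg.Agent.S0713
import Cfsg.Agent.S2119
import Cfsg.Agent.Lib.H84.DR1
import Cfsg.Agent.Lib.H84.DR2

/-!
Derangements of the largest prime order dividing the degree: reduction to sets.
-/

set_option autoImplicit false

namespace H84.DR3

open Equiv
open scoped Pointwise

/-- elements of order `r` are derangements if `r` divides the degree and `r ^ 2` does not divide the order -/
theorem large {G Ω : Type*} [Group G] [Finite G] [MulAction G Ω] (htr : MulAction.IsPretransitive G Ω) (ω : Ω)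
    {r : ℕ} (hr : r.Prime) (hrd : r ∣ Nat.card Ω) (h2 : ¬ r ^ 2 ∣ Nat.card G) :
    ∃ g : G, orderOf g = r ∧ ∀ x : Ω, g • x ≠ x := by
  have := Fact.mk hr
  have h3 : ∀ x : Ω, Nat.card (MulAction.stabilizer G x) * Nat.card Ω = Nat.card G := by
    intro x
    rw [← MulAction.index_stabilizer_of_transitive G x, Subgroup.card_mul_index]
  have h3' : r ∣ Nat.card G := hrd.trans ⟨_, (by rw [← h3 ω, mul_comm])⟩
  obtain ⟨g, hg⟩ := exists_prime_orderOf_dvd_card' r h3'
  refine ⟨g, hg, fun x hx => h2 ?_⟩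
  have h4 : r ∣ Nat.card (MulAction.stabilizer G x) := by
    have h5 := orderOf_dvd_natCard (⟨g, hx⟩ : MulAction.stabilizer G x)
    have h6 := Subgroup.orderOf_coe (⟨g, hx⟩ : MulAction.stabilizer G x)
    rw [← h6] at h5
    rw [← hg]
    exact h5
  rw [← h3 x, pow_two]
  exact Nat.mul_dvd_mul h4 hrd

/-- an element fixing a point has a conjugate in the point stabilizer -/
theorem conj_mem {G Ω P : Type*} [Group G] [MulAction G Ω] [Group P] (htr : MulAction.IsPretransitive G Ω) (ω : Ω)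
    (φ : G →* P) {g : G} {x : Ω} (hx : g • x = x) :
    ∃ a : G, (φ a)⁻¹ * φ g * φ a ∈ (MulAction.stabilizer G ω).map φ := by
  obtain ⟨a, rfl⟩ := MulAction.exists_smul_eq G ω x
  refine ⟨a, a⁻¹ * g * a, ?_, by simp⟩
  rw [SetLike.mem_coe, MulAction.mem_stabilizer_iff, mul_smul, mul_smul, hx, inv_smul_smul]

/-- the case of a transitive image of the point stabilizer -/
theorem trans_case {G Ω : Type*} [Group G] [Finite G] [MulAction G Ω] (htr : MulAction.IsPretransitive G Ω) {m : ℕ}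
    (hm : 5 ≤ m) (φ : G →* Perm (Fin m)) (hφ : Function.Injective φ)
    (hA : ∀ c ∈ alternatingGroup (Fin m), c ∈ φ.range) (ω : Ω)
    (hK : MulAction.IsPretransitive ((MulAction.stabilizer G ω).map φ) (Fin m))
    (hKA : ¬ alternatingGroup (Fin m) ≤ (MulAction.stabilizer G ω).map φ) {p : ℕ} (hp : p.Prime) (hpm : m < 2 * p)
    (hpm' : p ≤ m) (hpΩ : ¬ p ∣ Nat.card Ω) {r : ℕ} (hr : r.Prime) (h2r : 2 * r ≤ m)
    (hr3 : r = 2 → ¬ 3 ∣ Nat.card Ω) :
    ∃ g : G, orderOf g = r ∧ ∀ x : Ω, g • x ≠ x := by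
  classical
  have hpK : p ∣ Nat.card ((MulAction.stabilizer G ω).map φ) := by
    obtain ⟨c, hcA, hcp, -⟩ := H84.DR2.exists_perm m p hp hpm' (fun h => by omega)
    obtain ⟨g, rfl⟩ := hA c hcA
    have hgp : orderOf g = p := by rw [← hcp, orderOf_injective φ hφ]
    have h1 : Nat.card ((MulAction.stabilizer G ω).map φ) = Nat.card (MulAction.stabilizer G ω) :=
      (Nat.card_congr ((MulAction.stabilizer G ω).equivMapOfInjective φ hφ).toEquiv).symm
    rw [h1]
    have h2 : p ∣ Nat.card G := by rw [← hgp]; exact orderOf_dvd_natCard g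
    rw [← Subgroup.card_mul_index (MulAction.stabilizer G ω), MulAction.index_stabilizer_of_transitive] at h2
    exact (hp.dvd_mul.1 h2).resolve_right hpΩ
  have hprim := H84.DR2.primitive_of_prime _ hK hp hpm hpK
  by_cases h2 : r = 2
  · exfalso
    obtain ⟨c, hc⟩ : ∃ c : Perm (Fin m), c.cycleType = {3} :=
      (Perm.exists_with_cycleType_iff (Fin m)).2 ⟨by rw [Multiset.sum_singleton, Fintype.card_fin]; omega, by simp⟩
    have h3c : c.IsThreeCycle := hc
    have hcA : c ∈ alternatingGroup (Fin m) := by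
      rw [Perm.mem_alternatingGroup]; exact h3c.sign
    obtain ⟨g, rfl⟩ := hA c hcA
    have hg3 : orderOf g = 3 := by rw [← orderOf_injective φ hφ, h3c.orderOf]
    have hpg : IsPGroup 3 (Subgroup.zpowers g) :=
      IsPGroup.of_card (n := 1) (by rw [Nat.card_zpowers, hg3, pow_one])
    have := Fact.mk Nat.prime_three
    obtain ⟨x, hx⟩ := hpg.nonempty_fixed_point_of_prime_not_dvd_card Ω (hr3 h2)
    have hx' : g • x = x := hx ⟨g, Subgroup.mem_zpowers g⟩
    obtain ⟨a, ha⟩ := conj_mem htr ω φ hx'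
    apply hKA
    apply Perm.alternatingGroup_le_of_isPreprimitive_of_isThreeCycle_mem hprim (g := (φ a)⁻¹ * φ g * φ a) _ ha
    have h5 := Perm.cycleType_conj (σ := φ g) (τ := (φ a)⁻¹)
    rw [inv_inv] at h5
    exact h5.trans h3c
  · have hr2 := hr.two_le
    obtain ⟨c, hc⟩ : ∃ c : Perm (Fin m), c.cycleType = {r} :=
      (Perm.exists_with_cycleType_iff (Fin m)).2 ⟨by rw [Multiset.sum_singleton, Fintype.card_fin]; omega, by
        intro a ha; rw [Multiset.mem_singleton] at ha; omega⟩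
    have hcyc : c.IsCycle := Perm.card_cycleType_eq_one.1 (by rw [hc]; rfl)
    have hord : orderOf c = r := by rw [← Perm.lcm_cycleType, hc]; simp
    have hcA : c ∈ alternatingGroup (Fin m) := by
      rw [Perm.mem_alternatingGroup]
      have hodd : Odd r := hr.odd_of_ne_two h2
      have h5 : Perm.sign c ^ r = 1 := by
        rw [← map_pow, ← hord, pow_orderOf_eq_one, map_one]
      rcases Int.units_eq_one_or (Perm.sign c) with h6 | h6
      · exact h6
      · rw [h6, hodd.neg_one_pow] at h5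
        exact absurd h5 (by decide)
    obtain ⟨g, rfl⟩ := hA c hcA
    refine ⟨g, by rw [← orderOf_injective φ hφ, hord], fun x hx => ?_⟩
    obtain ⟨a, ha⟩ := conj_mem htr ω φ hx
    apply hKA
    have hcyc' : ((φ a)⁻¹ * φ g * φ a).IsCycle := by
      have h5 := hcyc.conj (g := (φ a)⁻¹)
      rwa [inv_inv] at h5
    have hsupp : ((φ a)⁻¹ * φ g * φ a).support.card = r := by
      have h5 := Perm.cycleType_conj (σ := φ g) (τ := (φ a)⁻¹)
      rw [inv_inv] at h5
      rw [← hcyc'.orderOf, ← Perm.lcm_cycleType, h5, hc]; simp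
    have h3 : r ≠ 2 := h2
    exact Cfsg.Agent.S0713.result _ hprim hr (by rw [Fintype.card_fin]; exact hm)
      (by rw [Fintype.card_fin]; omega) hcyc' hsupp ha

/-- an intransitive subgroup stabilizes a small set -/
theorem exists_set {m : ℕ} (hm : 1 ≤ m) (K : Subgroup (Perm (Fin m))) (hK : ¬ MulAction.IsPretransitive K (Fin m)) :
    ∃ Δ : Finset (Fin m), 1 ≤ Δ.card ∧ 2 * Δ.card ≤ m ∧ ∀ k ∈ K, ∀ y ∈ Δ, k y ∈ Δ := by
  classical
  let x0 : Fin m := ⟨0, hm⟩
  rw [MulAction.isPretransitive_iff_base x0] at hK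
  push Not at hK
  obtain ⟨z, hz⟩ := hK
  let O : Finset (Fin m) := Finset.univ.filter fun y => ∃ g : K, g • x0 = y
  have hO : ∀ y, y ∈ O ↔ ∃ g : K, g • x0 = y := fun y => by simp [O]
  have hinv : ∀ k ∈ K, ∀ y ∈ O, k y ∈ O := by
    intro k hk y hy
    rw [hO] at hy ⊢
    obtain ⟨g, rfl⟩ := hy
    exact ⟨⟨k, hk⟩ * g, rfl⟩
  have hinv' : ∀ k ∈ K, ∀ y ∈ Oᶜ, k y ∈ Oᶜ := by
    intro k hk y hy
    rw [Finset.mem_compl] at hy ⊢
    intro h
    apply hy
    have h1 := hinv k⁻¹ (K.inv_mem hk) _ h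
    have h2 : k⁻¹ (k y) = y := k.symm_apply_apply y
    rwa [h2] at h1
  have hx0 : x0 ∈ O := (hO _).2 ⟨1, one_smul _ _⟩
  have hz' : z ∈ Oᶜ := by
    rw [Finset.mem_compl, hO]
    rintro ⟨g, hg⟩
    exact hz g hg
  have hcard : O.card + Oᶜ.card = m := by rw [Finset.card_add_card_compl, Fintype.card_fin]
  by_cases h : 2 * O.card ≤ m
  · exact ⟨O, Finset.card_pos.2 ⟨x0, hx0⟩, h, hinv⟩
  · exact ⟨Oᶜ, Finset.card_pos.2 ⟨z, hz'⟩, by omega, hinv'⟩

/-- the alternating group is transitive on the sets of size `k` -/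
theorem alt_trans {m k : ℕ} (hm : 5 ≤ m) (hk : 2 * k ≤ m) (Δ Δ' : Finset (Fin m)) (h : Δ.card = k) (h' : Δ'.card = k) :
    ∃ c ∈ alternatingGroup (Fin m), c • Δ = Δ' := by
  classical
  have h1 : MulAction.IsMultiplyPretransitive (alternatingGroup (Fin m)) (Fin m) (Nat.card (Fin m) - 2) :=
    alternatingGroup.isMultiplyPretransitive (Fin m)
  have h2 : MulAction.IsMultiplyPretransitive (alternatingGroup (Fin m)) (Fin m) k := by
    apply MulAction.isMultiplyPretransitive_of_le (n := Nat.card (Fin m) - 2)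
    · rw [Nat.card_fin]; omega
    · exact Nat.sub_le _ _
  have h3 := Set.powersetCard.isPretransitive_of_isMultiplyPretransitive (alternatingGroup (Fin m)) h2
  let x : Set.powersetCard (Fin m) k := ⟨Δ, h⟩
  let y : Set.powersetCard (Fin m) k := ⟨Δ', h'⟩
  obtain ⟨c, hc⟩ := h3.exists_smul_eq x y
  refine ⟨c, c.2, ?_⟩
  have h4 := congrArg Subtype.val hc
  exact h4

/-- the case of an intransitive image of the point stabilizer: the action is that on `k`-sets -/
theorem intrans {G Ω : Type*} [Group G] [Finite G] [MulAction G Ω] [Nontrivial Ω]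
    (hprim : MulAction.IsPreprimitive G Ω) {m : ℕ} (hm : 5 ≤ m) (φ : G →* Perm (Fin m))
    (hA : ∀ c ∈ alternatingGroup (Fin m), c ∈ φ.range) (ω : Ω)
    (hK : ¬ MulAction.IsPretransitive ((MulAction.stabilizer G ω).map φ) (Fin m)) :
    ∃ Δ : Finset (Fin m), 1 ≤ Δ.card ∧ 2 * Δ.card ≤ m ∧ Nat.card Ω = m.choose Δ.card ∧
      ∀ k ∈ (MulAction.stabilizer G ω).map φ, ∀ y ∈ Δ, k y ∈ Δ := by
  classical
  obtain ⟨Δ, h1, h2, h3⟩ := exists_set (by omega) _ hK
  refine ⟨Δ, h1, h2, ?_, h3⟩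
  letI act : MulAction G (Finset (Fin m)) := MulAction.compHom _ φ
  have hact : ∀ (g : G) (s : Finset (Fin m)), g • s = φ g • s := fun _ _ => rfl
  let S : Subgroup G := MulAction.stabilizer G Δ
  have hle : MulAction.stabilizer G ω ≤ S := by
    intro g hg
    show g • Δ = Δ
    rw [hact]
    apply Finset.eq_of_subset_of_card_le
    · intro y hy
      rw [Finset.mem_smul_finset] at hy
      obtain ⟨z, hz, rfl⟩ := hy
      exact h3 _ ⟨g, hg, rfl⟩ z hz
    · rw [Finset.card_smul_finset]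
  have horb : MulAction.orbit G Δ = ((Finset.powersetCard Δ.card Finset.univ : Finset (Finset (Fin m))) : Set (Finset (Fin m))) := by
    ext Δ'
    rw [Finset.mem_coe, Finset.mem_powersetCard_univ]
    constructor
    · rintro ⟨g, rfl⟩
      show (g • Δ).card = _
      rw [hact, Finset.card_smul_finset]
    · intro h
      obtain ⟨c, hc, hcΔ⟩ := alt_trans hm h2 Δ Δ' rfl h
      obtain ⟨g, rfl⟩ := hA c hc
      exact ⟨g, hcΔ⟩
  have hidx : S.index = m.choose Δ.card := by
    show (MulAction.stabilizer G Δ).index = _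
    rw [MulAction.index_stabilizer, horb, Set.ncard_coe_finset, Finset.card_powersetCard, Finset.card_univ,
      Fintype.card_fin]
  have hne : S ≠ ⊤ := by
    intro h
    rw [h, Subgroup.index_top] at hidx
    have h4 : 1 ≤ m.choose Δ.card := Nat.choose_pos (by omega)
    have h5 : m.choose Δ.card ≠ 1 := by
      rw [Ne, Nat.choose_eq_one_iff]
      omega
    omega
  have hco : IsCoatom (MulAction.stabilizer G ω) := (MulAction.isCoatom_stabilizer_iff_preprimitive G ω).2 hprim
  have heq : S = MulAction.stabilizer G ω := (hco.le_iff_eq hne).1 hle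
  rw [← hidx, heq, MulAction.index_stabilizer_of_transitive]

/-- derangements in the action on `k`-sets -/
theorem intrans_der {G Ω : Type*} [Group G] [Finite G] [MulAction G Ω] [Nontrivial Ω]
    (hprim : MulAction.IsPreprimitive G Ω) {m : ℕ} (hm : 5 ≤ m) (φ : G →* Perm (Fin m)) (hφ : Function.Injective φ)
    (hA : ∀ c ∈ alternatingGroup (Fin m), c ∈ φ.range) (ω : Ω)
    (hK : ¬ MulAction.IsPretransitive ((MulAction.stabilizer G ω).map φ) (Fin m))
    {r : ℕ} (hr : r.Prime) (hrd : r ∣ Nat.card Ω) (hmax : ∀ s : ℕ, s.Prime → s ∣ Nat.card Ω → s ≤ r) :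
    ∃ g : G, orderOf g = r ∧ ∀ x : Ω, g • x ≠ x := by
  classical
  obtain ⟨Δ, h1, h2, h3, h4⟩ := intrans hprim hm φ hA ω hK
  rw [h3] at hrd hmax
  have h5 : m % r < Δ.card % r := H84.DR1.main hm h1 h2 hr hrd hmax
  have h6 : r = 2 → 4 ∣ m := by
    rintro rfl
    exact (H84.DR1.main_two hm h1 h2 hmax).2
  have h7 : r ≤ m := by
    have h8 : r ∣ m.factorial := by
      rw [← Nat.choose_mul_factorial_mul_factorial (show Δ.card ≤ m by omega), mul_assoc]
      exact hrd.mul_right _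
    exact (hr.dvd_factorial).1 h8
  obtain ⟨c, hcA, hc1, hc2⟩ := H84.DR2.exists_perm m r hr h7 h6
  obtain ⟨g, rfl⟩ := hA c hcA
  refine ⟨g, by rw [← orderOf_injective φ hφ, hc1], fun x hx => ?_⟩
  obtain ⟨a, ha⟩ := conj_mem hprim.toIsPretransitive ω φ hx
  apply H84.DR2.no_fixed_set hr (c := φ g) (by rw [← hc1]; exact pow_orderOf_eq_one _) hc2 h5 (φ a • Δ)
    (Finset.card_smul_finset _ _)
  intro y hy
  rw [Finset.mem_smul_finset] at hy ⊢
  obtain ⟨z, hz, rfl⟩ := hy
  refine ⟨_, h4 _ ha z hz, ?_⟩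
  simp [Perm.smul_def]

end H84.DR3
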