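import Mathlib
import Cfsg.Agent.Lib.H84.DR3

/-!
Derangements of the largest prime order dividing the degree: almost simple groups with alternating socle.
-/

set_option autoImplicit false

namespace H84.DR4

open Equiv
open scoped Pointwise

theorem fixes_point (K : Subgroup (Perm (Fin 6))) (hK : ¬ MulAction.IsPretransitive K (Fin 6))
    (h5 : 5 ∣ Nat.card K) : ∃ x0 : Fin 6, ∀ k ∈ K, k x0 = x0 := by
  classical
  have := Fact.mk Nat.prime_five
  obtain ⟨c, hc⟩ := exists_prime_orderOf_dvd_card' 5 h5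
  have hc' : orderOf (c : Perm (Fin 6)) = 5 := by rw [Subgroup.orderOf_coe, hc]
  have hcyc : (c : Perm (Fin 6)).IsCycle := by
    apply Perm.isCycle_of_prime_order'
    · rw [hc']; exact Nat.prime_five
    · rw [hc', Fintype.card_fin]; norm_num
  have hsupp : (c : Perm (Fin 6)).support.card = 5 := by rw [← hcyc.orderOf, hc']
  have hcompl : ((c : Perm (Fin 6)).supportᶜ).card = 1 := by
    have h1 := Finset.card_add_card_compl (c : Perm (Fin 6)).support
    rw [Fintype.card_fin] at h1
    omega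
  obtain ⟨x0, hx0⟩ := Finset.card_eq_one.1 hcompl
  have hmem : ∀ y, y ≠ x0 → y ∈ (c : Perm (Fin 6)).support := by
    intro y hy
    by_contra h
    rw [← Finset.mem_compl, hx0, Finset.mem_singleton] at h
    exact hy h
  refine ⟨x0, fun k hk => ?_⟩
  by_contra hne
  apply hK
  rw [MulAction.isPretransitive_iff_base x0]
  intro z
  by_cases hz : z = x0
  · exact ⟨1, by rw [hz]; exact one_smul _ _⟩
  · obtain ⟨i, hi⟩ := hcyc.sameCycle (Perm.mem_support.1 (hmem _ hne)) (Perm.mem_support.1 (hmem z hz))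
    refine ⟨c ^ i * ⟨k, hk⟩, ?_⟩
    rw [← hi]
    show ((c ^ i * ⟨k, hk⟩ : K) : Perm (Fin 6)) x0 = _
    rw [Subgroup.coe_mul, Subgroup.coe_zpow]
    rfl

theorem six {G Ω : Type*} [Group G] [Finite G] [MulAction G Ω] (htr : MulAction.IsPretransitive G Ω)
    (φ : G →* Perm (Fin 6)) (hφ : Function.Injective φ)
    (hA : ∀ c ∈ alternatingGroup (Fin 6), c ∈ φ.range) (ω : Ω)
    (hKA : ¬ alternatingGroup (Fin 6) ≤ (MulAction.stabilizer G ω).map φ)
    {r : ℕ} (hr : r.Prime) (h2r : 2 * r ≤ 6) (hmax : ∀ s : ℕ, s.Prime → s ∣ Nat.card Ω → s ≤ r) :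
    ∃ g : G, orderOf g = r ∧ ∀ x : Ω, g • x ≠ x := by
  classical
  have h5 : ¬ 5 ∣ Nat.card Ω := fun h => by have := hmax 5 Nat.prime_five h; omega
  by_cases hK : MulAction.IsPretransitive ((MulAction.stabilizer G ω).map φ) (Fin 6)
  · exact H84.DR3.trans_case htr (by norm_num) φ hφ hA ω hK hKA Nat.prime_five (by norm_num) (by norm_num) h5 hr h2r
      (fun h h3 => by have := hmax 3 Nat.prime_three h3; omega)
  have h5K : 5 ∣ Nat.card ((MulAction.stabilizer G ω).map φ) := by
    obtain ⟨c, hcA, hcp, -⟩ := H84.DR2.exists_perm 6 5 Nat.prime_five (by norm_num) (by norm_num)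
    obtain ⟨g, rfl⟩ := hA c hcA
    have hgp : orderOf g = 5 := by rw [← hcp, orderOf_injective φ hφ]
    have h1 : Nat.card ((MulAction.stabilizer G ω).map φ) = Nat.card (MulAction.stabilizer G ω) :=
      (Nat.card_congr ((MulAction.stabilizer G ω).equivMapOfInjective φ hφ).toEquiv).symm
    rw [h1]
    have h2 : 5 ∣ Nat.card G := by rw [← hgp]; exact orderOf_dvd_natCard g
    rw [← Subgroup.card_mul_index (MulAction.stabilizer G ω), MulAction.index_stabilizer_of_transitive] at h2
    exact (Nat.prime_five.dvd_mul.1 h2).resolve_right h5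
  obtain ⟨x0, hx0⟩ := fixes_point _ hK h5K
  obtain ⟨c, hcA, hc3, hcf⟩ := H84.DR2.exists_perm 6 3 Nat.prime_three (by norm_num) (by norm_num)
  obtain ⟨g, rfl⟩ := hA c hcA
  have hg3 : orderOf g = 3 := by rw [← hc3, orderOf_injective φ hφ]
  have hder : ∀ x : Ω, g • x ≠ x := by
    intro x hx
    obtain ⟨a, ha⟩ := H84.DR3.conj_mem htr ω φ hx
    have h1 : (φ a)⁻¹ (φ g (φ a x0)) = x0 := hx0 _ ha
    have h2 : φ g (φ a x0) = φ a x0 := by
      have h3 := congrArg (φ a) h1
      rwa [show φ a ((φ a)⁻¹ (φ g (φ a x0))) = φ g (φ a x0) from (φ a).apply_symm_apply _] at h3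
    have h4 : φ a x0 ∈ Finset.univ.filter (fun x => φ g x = x) := Finset.mem_filter.2 ⟨Finset.mem_univ _, h2⟩
    have h5 := Finset.card_pos.2 ⟨_, h4⟩
    omega
  have h23 : r = 2 ∨ r = 3 := by
    have := hr.two_le
    omega
  rcases h23 with rfl | rfl
  · exfalso
    have hpg : IsPGroup 3 (Subgroup.zpowers g) :=
      IsPGroup.of_card (n := 1) (by rw [Nat.card_zpowers, hg3, pow_one])
    have := Fact.mk Nat.prime_three
    obtain ⟨x, hx⟩ := hpg.nonempty_fixed_point_of_prime_not_dvd_card Ω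
      (fun h3 => by have := hmax 3 Nat.prime_three h3; omega)
    exact hder x (hx ⟨g, Subgroup.mem_zpowers g⟩)
  · exact ⟨g, hg3, hder⟩

theorem not_sq_dvd {m r : ℕ} (hm : 5 ≤ m) (hr : r.Prime) (h2 : m < 2 * r) : ¬ r ^ 2 ∣ m.factorial := by
  intro h
  have hr3 : 3 ≤ r := by omega
  have hlog : Nat.log r m < 2 := by
    rw [Nat.log_lt_iff_lt_pow hr.one_lt (by omega)]
    nlinarith
  rw [hr.pow_dvd_factorial_iff hlog] at h
  rw [show Finset.Ico 1 2 = {1} from rfl, Finset.sum_singleton, pow_one] at h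
  rw [Nat.le_div_iff_mul_le hr.pos] at h
  omega

theorem main {G Ω : Type*} [Group G] [Finite G] [MulAction G Ω] [FaithfulSMul G Ω] [Finite Ω]
    (T : Subgroup G) (hT : T.Normal) (hTc : Subgroup.centralizer (T : Set G) = ⊥) (m : ℕ) (hm : 5 ≤ m)
    (eT : ↥T ≃* ↥(alternatingGroup (Fin m))) (hprim : MulAction.IsPreprimitive G Ω) (hΩ : 2 ≤ Nat.card Ω)
    (r : ℕ) (hr : r.Prime) (hrd : r ∣ Nat.card Ω) (hmax : ∀ s : ℕ, s.Prime → s ∣ Nat.card Ω → s ≤ r) :
    ∃ g : G, orderOf g = r ∧ ∀ ω : Ω, g • ω ≠ ω := by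
  classical
  have hnt : Nontrivial Ω := Finite.one_lt_card_iff_nontrivial.1 hΩ
  obtain ⟨ω⟩ : Nonempty Ω := inferInstance
  have hAnt : Nontrivial (alternatingGroup (Fin m)) :=
    alternatingGroup.nontrivial_of_three_le_card (by rw [Nat.card_fin]; omega)
  have hTnt : Nontrivial T := eT.toEquiv.nontrivial
  have hTfix : MulAction.fixedPoints T Ω ≠ Set.univ := by
    intro h
    obtain ⟨t, ht⟩ := exists_ne (1 : T)
    apply ht
    apply Subtype.ext
    apply eq_of_smul_eq_smul (α := Ω)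
    intro x
    have hx : x ∈ MulAction.fixedPoints T Ω := by rw [h]; trivial
    rw [Subgroup.coe_one, one_smul]
    exact hx t
  have hTtr : MulAction.IsPretransitive T Ω := MulAction.IsQuasiPreprimitive.isPretransitive_of_normal hTfix
  have hTst : ¬ T ≤ MulAction.stabilizer G ω := by
    intro h
    obtain ⟨x, hx⟩ := exists_ne ω
    obtain ⟨t, ht⟩ := MulAction.exists_smul_eq T ω x
    apply hx
    rw [← ht]
    exact h t.2
  by_cases h2 : m < 2 * r
  · have h3 : ¬ r ^ 2 ∣ Nat.card T := by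
      intro h
      apply not_sq_dvd hm hr h2
      have hc := Subgroup.card_subgroup_dvd_card (alternatingGroup (Fin m))
      rw [Nat.card_perm, Nat.card_fin] at hc
      rw [Nat.card_congr eT.toEquiv] at h
      exact h.trans hc
    obtain ⟨g, hg, hg2⟩ := H84.DR3.large hTtr ω hr hrd h3
    exact ⟨g, by rw [Subgroup.orderOf_coe, hg], hg2⟩
  push Not at h2
  by_cases h6 : m = 6
  · subst h6
    let φ : T →* Perm (Fin 6) := (alternatingGroup (Fin 6)).subtype.comp eT.toMonoidHom
    have hφ : Function.Injective φ := (Subtype.val_injective).comp eT.injective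
    have hA : ∀ c ∈ alternatingGroup (Fin 6), c ∈ φ.range := by
      intro c hc
      refine ⟨eT.symm ⟨c, hc⟩, ?_⟩
      show ((eT (eT.symm ⟨c, hc⟩) : alternatingGroup (Fin 6)) : Perm (Fin 6)) = c
      rw [eT.apply_symm_apply]
    have hKA : ¬ alternatingGroup (Fin 6) ≤ (MulAction.stabilizer T ω).map φ := by
      intro h
      apply hTst
      intro t ht
      have h4 : φ ⟨t, ht⟩ ∈ (MulAction.stabilizer T ω).map φ := h (eT ⟨t, ht⟩).2
      obtain ⟨s, hs, hst⟩ := h4
      have h5 : s = ⟨t, ht⟩ := hφ hst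
      rw [h5] at hs
      exact hs
    obtain ⟨g, hg, hg2⟩ := six hTtr φ hφ hA ω hKA hr h2 hmax
    exact ⟨g, by rw [Subgroup.orderOf_coe, hg], hg2⟩
  have hbij := Cfsg.Agent.S2119.result m (by omega) h6
  let E : Perm (Fin m) ≃* MulAut (alternatingGroup (Fin m)) := MulEquiv.ofBijective _ hbij
  let φ : G →* Perm (Fin m) :=
    E.symm.toMonoidHom.comp ((MulAut.congr eT).toMonoidHom.comp (MulAut.conjNormal (H := T)))
  have hφE : ∀ g : G, E (φ g) = MulAut.congr eT (MulAut.conjNormal g) := fun g => E.apply_symm_apply _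
  have hφ : Function.Injective φ := by
    rw [injective_iff_map_eq_one]
    intro g hg
    have h4 := hφE g
    rw [hg, map_one] at h4
    have h5 : (MulAut.conjNormal g : MulAut T) = 1 := by
      apply (MulAut.congr eT).injective
      rw [← h4, map_one]
    have h6 : g ∈ Subgroup.centralizer (T : Set G) := by
      rw [Subgroup.mem_centralizer_iff]
      intro t ht
      have h7 := congrArg Subtype.val (DFunLike.congr_fun h5 (⟨t, ht⟩ : T))
      rw [MulAut.conjNormal_apply] at h7
      have h8 : g * t * g⁻¹ = t := h7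
      rw [mul_inv_eq_iff_eq_mul] at h8
      exact h8.symm
    rwa [hTc, Subgroup.mem_bot] at h6
  have hφT : ∀ t : T, φ t = (eT t : Perm (Fin m)) := by
    intro t
    apply E.injective
    rw [hφE]
    apply MulEquiv.ext
    intro x
    apply Subtype.ext
    have h4 : ((E (eT t : Perm (Fin m)) x : alternatingGroup (Fin m)) : Perm (Fin m)) =
        eT t * x * (eT t : Perm (Fin m))⁻¹ := MulAut.conjNormal_apply _ _
    rw [h4]
    have h5 : (MulAut.conjNormal (t : G) : MulAut T) (eT.symm x) = t * eT.symm x * t⁻¹ := by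
      apply Subtype.ext
      rw [MulAut.conjNormal_apply]
      rfl
    have h6 : (MulAut.congr eT (MulAut.conjNormal (t : G))) x = eT ((MulAut.conjNormal (t : G) : MulAut T) (eT.symm x)) := rfl
    rw [h6, h5, map_mul, map_mul, map_inv, eT.apply_symm_apply]
    rfl
  have hA : ∀ c ∈ alternatingGroup (Fin m), c ∈ φ.range := by
    intro c hc
    refine ⟨eT.symm ⟨c, hc⟩, ?_⟩
    rw [hφT, eT.apply_symm_apply]
  have hKA : ¬ alternatingGroup (Fin m) ≤ (MulAction.stabilizer G ω).map φ := by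
    intro h
    apply hTst
    intro t ht
    have h4 : φ t ∈ (MulAction.stabilizer G ω).map φ := by
      have h5 := hφT ⟨t, ht⟩
      rw [h5]
      exact h (eT ⟨t, ht⟩).2
    obtain ⟨s, hs, hst⟩ := h4
    have h5 : s = t := hφ hst
    rw [h5] at hs
    exact hs
  by_cases hK : MulAction.IsPretransitive ((MulAction.stabilizer G ω).map φ) (Fin m)
  · obtain ⟨p, hp, hp1, hp2⟩ := Nat.exists_prime_lt_and_le_two_mul (m / 2) (by omega)
    have hpΩ : ¬ p ∣ Nat.card Ω := fun h => by have := hmax p hp h; omega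
    exact H84.DR3.trans_case hprim.toIsPretransitive hm φ hφ hA ω hK hKA hp (by omega) (by omega) hpΩ hr h2
      (fun h h3 => by have := hmax 3 Nat.prime_three h3; omega)
  · exact H84.DR3.intrans_der hprim hm φ hφ hA ω hK hr hrd hmax

end H84.DR4
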