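import Cfsg.Agent.Lib.H83.Gallagher
import Cfsg.Agent.Lib.H31.CentralSec
import Cfsg.Agent.Lib.H4.CenterIndex
import Cfsg.Agent.Lib.H20.Loc

/-!
# Orbit sums of a subgroup `N` under conjugation, and characters with irreducible restriction to `N`

`orb N b` is the finite set of `N`-conjugates of `b`.  If `χ_N` is irreducible then
`b ↦ |orb N b| χ(b) / χ(1)` is the scalar by which the orbit sum acts.
-/

set_option autoImplicit false
set_option linter.unusedSectionVars false

namespace H84.OrbN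

open Cfsg H18.CharBasic H18.CharOrtho H18.CharInd H18.CharQuot Representation Subgroup
open scoped ComplexConjugate

universe u
variable {G : Type u} [Group G]

/-- Averaging over a subgroup on which the restriction is irreducible. -/
theorem avg_conj [Finite G] (N : Subgroup G) [Fintype N] {χ : G → ℂ} (hχ : IsCharacter G χ)
    (hN : IsIrrCharacter N (fun n : N => χ n)) (a b : G) :
    (∑ n : N, χ (a * ((n : G) * b * (n : G)⁻¹))) * χ 1 = (Nat.card N : ℂ) * χ a * χ b := by
  classical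
  obtain ⟨d, ρ, rfl⟩ := hχ
  have hirr := H83.Gallagher.restrict_irreducible ρ N hN
  have hcomm : ∀ m : N, (∑ n : N, ρ ((n : G) * b * (n : G)⁻¹)) * ρ (m : G) =
      ρ (m : G) * ∑ n : N, ρ ((n : G) * b * (n : G)⁻¹) := by
    intro m
    rw [Finset.sum_mul, Finset.mul_sum]
    refine Fintype.sum_equiv (Equiv.mulLeft (m⁻¹)) _ _ fun n => ?_
    rw [← map_mul, ← map_mul]
    congr 1
    simp only [Equiv.coe_mulLeft, Subgroup.coe_mul, Subgroup.coe_inv]
    group
  obtain ⟨μ, hμ⟩ := H31.CentralSec.schur_scalar (H83.Gallagher.resRep ρ N) hirr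
    (∑ n : N, ρ ((n : G) * b * (n : G)⁻¹)) (fun m => hcomm m)
  have h1 : ∀ a : G, ∑ n : N, ρ.character (a * ((n : G) * b * (n : G)⁻¹)) = μ * ρ.character a := by
    intro a
    have : LinearMap.trace ℂ _ (ρ a * ∑ n : N, ρ ((n : G) * b * (n : G)⁻¹)) = μ * ρ.character a := by
      rw [hμ]
      have h2 : ρ a * (μ • (LinearMap.id : (Fin d → ℂ) →ₗ[ℂ] (Fin d → ℂ))) = μ • ρ a := by
        ext v; simp
      rw [h2, map_smul]; rfl
    rw [← this, Finset.mul_sum, map_sum]
    refine Finset.sum_congr rfl fun n _ => ?_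
    rw [← map_mul]; rfl
  have h2 := h1 1
  have h3 : ∑ n : N, ρ.character (1 * ((n : G) * b * (n : G)⁻¹)) = (Nat.card N : ℂ) * ρ.character b := by
    rw [Finset.sum_congr rfl (fun n _ => by rw [one_mul, Representation.char_conj]),
      Finset.sum_const, Finset.card_univ, nsmul_eq_mul, Nat.card_eq_fintype_card]
  rw [h1 a]
  rw [h3] at h2
  calc μ * ρ.character a * ρ.character 1 = ρ.character a * (μ * ρ.character 1) := by ring
    _ = (Nat.card N : ℂ) * ρ.character a * ρ.character b := by rw [← h2]; ring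

open Classical in
/-- The `N`-conjugates of `b`. -/
noncomputable def orb (N : Subgroup G) [Fintype N] (b : G) : Finset G :=
  Finset.univ.image (fun n : N => (n : G) * b * (n : G)⁻¹)

theorem mem_orb {N : Subgroup G} [Fintype N] {b x : G} :
    x ∈ orb N b ↔ ∃ n ∈ N, n * b * n⁻¹ = x := by
  classical
  unfold orb
  rw [Finset.mem_image]
  constructor
  · rintro ⟨n, _, h⟩; exact ⟨n, n.2, h⟩
  · rintro ⟨n, hn, h⟩; exact ⟨⟨n, hn⟩, Finset.mem_univ _, h⟩

theorem self_mem_orb {N : Subgroup G} [Fintype N] (b : G) : b ∈ orb N b :=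
  mem_orb.2 ⟨1, N.one_mem, by group⟩

theorem orb_nonempty {N : Subgroup G} [Fintype N] (b : G) : (orb N b).Nonempty := ⟨b, self_mem_orb b⟩

theorem orb_eq_iff {N : Subgroup G} [Fintype N] {a b : G} : orb N a = orb N b ↔ a ∈ orb N b := by
  constructor
  · intro h; rw [← h]; exact self_mem_orb a
  · intro h
    obtain ⟨n, hn, rfl⟩ := mem_orb.1 h
    ext x
    rw [mem_orb, mem_orb]
    constructor
    · rintro ⟨m, hm, rfl⟩
      exact ⟨m * n, N.mul_mem hm hn, by group⟩
    · rintro ⟨m, hm, rfl⟩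
      exact ⟨m * n⁻¹, N.mul_mem hm (N.inv_mem hn), by group⟩

theorem orb_conj {N : Subgroup G} [Fintype N] {a n : G} (hn : n ∈ N) : orb N (n * a * n⁻¹) = orb N a :=
  orb_eq_iff.2 (mem_orb.2 ⟨n, hn, rfl⟩)

theorem conj_mem_orb {N : Subgroup G} [Fintype N] {a x n : G} (hn : n ∈ N) :
    n * x * n⁻¹ ∈ orb N a ↔ x ∈ orb N a := by
  rw [← orb_eq_iff, ← orb_eq_iff, orb_conj hn]

/-- Sums over an orbit and over the group. -/
theorem sum_orb {N : Subgroup G} [Fintype N] (b : G) (F : G → ℂ) :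
    ((orb N b).card : ℂ) * ∑ n : N, F ((n : G) * b * (n : G)⁻¹) =
      (Nat.card N : ℂ) * ∑ x ∈ orb N b, F x := by
  classical
  let c := (Finset.univ.filter (fun n : N => (n : G) * b * (n : G)⁻¹ = b)).card
  have hfib : ∀ x ∈ orb N b,
      (Finset.univ.filter (fun n : N => (n : G) * b * (n : G)⁻¹ = x)).card = c := by
    intro x hx
    obtain ⟨m, hm, rfl⟩ := mem_orb.1 hx
    refine Finset.card_bij' (fun n _ => (⟨m, hm⟩ : N)⁻¹ * n) (fun n _ => (⟨m, hm⟩ : N) * n) ?_ ?_ ?_ ?_
    · intro n hn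
      have hn' := (Finset.mem_filter.1 hn).2
      refine Finset.mem_filter.2 ⟨Finset.mem_univ _, ?_⟩
      simp only [Subgroup.coe_mul, Subgroup.coe_inv]
      have : m⁻¹ * (n : G) * b * (m⁻¹ * (n : G))⁻¹ = m⁻¹ * ((n : G) * b * (n : G)⁻¹) * m := by group
      rw [this, hn']; group
    · intro n hn
      have hn' := (Finset.mem_filter.1 hn).2
      refine Finset.mem_filter.2 ⟨Finset.mem_univ _, ?_⟩
      simp only [Subgroup.coe_mul]
      have : m * (n : G) * b * (m * (n : G))⁻¹ = m * ((n : G) * b * (n : G)⁻¹) * m⁻¹ := by group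
      rw [this, hn']
    · intro n _; simp
    · intro n _; simp
  have h1 : ∑ n : N, F ((n : G) * b * (n : G)⁻¹) = (c : ℂ) * ∑ x ∈ orb N b, F x := by
    rw [← Finset.sum_fiberwise_of_maps_to (s := (Finset.univ : Finset N)) (t := orb N b)
      (g := fun n : N => (n : G) * b * (n : G)⁻¹) (fun n _ => mem_orb.2 ⟨n, n.2, rfl⟩), Finset.mul_sum]
    refine Finset.sum_congr rfl fun x hx => ?_
    rw [Finset.sum_congr rfl (fun n hn => by rw [(Finset.mem_filter.1 hn).2]), Finset.sum_const,
      hfib x hx, nsmul_eq_mul]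
  have h2 : Nat.card N = c * (orb N b).card := by
    rw [Nat.card_eq_fintype_card, ← Finset.card_univ,
      Finset.card_eq_sum_card_fiberwise (f := fun n : N => (n : G) * b * (n : G)⁻¹) (t := orb N b)
        (fun n _ => mem_orb.2 ⟨n, n.2, rfl⟩), Finset.sum_congr rfl hfib, Finset.sum_const, smul_eq_mul,
      mul_comm]
  rw [h1, h2]
  push_cast
  ring

/-- The size of an orbit is the index of the centralizer. -/
theorem card_orb {N : Subgroup G} [Fintype N] (b : G) :
    (orb N b).card = (centralizer ({b} : Set G)).relIndex N := by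
  classical
  have h0 : (orb N b).card = Nat.card (orb N b : Set G) := by
    rw [Nat.card_eq_fintype_card]; simp
  rw [Subgroup.relIndex, Subgroup.index, h0]
  symm
  have hmem : ∀ n : N, (n : G) * b * (n : G)⁻¹ ∈ (orb N b : Set G) := fun n =>
    Finset.mem_coe.2 (mem_orb.2 ⟨(n : G), n.2, rfl⟩)
  refine Nat.card_congr (Equiv.ofBijective (Quotient.lift (fun n : N => (⟨(n : G) * b * (n : G)⁻¹,
    hmem n⟩ : (orb N b : Set G))) ?_) ⟨?_, ?_⟩)
  · intro n m h
    rw [← Quotient.eq_iff_equiv, Quotient.eq, QuotientGroup.leftRel_apply] at h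
    apply Subtype.ext
    have h1 : (n : G)⁻¹ * (m : G) ∈ centralizer ({b} : Set G) := h
    rw [mem_centralizer_singleton_iff] at h1
    change (n : G) * b * (n : G)⁻¹ = (m : G) * b * (m : G)⁻¹
    have h2 : (m : G) * b = (n : G) * b * (n : G)⁻¹ * m := by
      have h3 : (n : G) * ((n : G)⁻¹ * (m : G) * b) = (n : G) * (b * ((n : G)⁻¹ * (m : G))) := by rw [h1]
      have h4 : (n : G) * ((n : G)⁻¹ * (m : G) * b) = (m : G) * b := by group
      rw [h4] at h3
      rw [h3]; group
    rw [h2]; group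
  · rintro ⟨n⟩ ⟨m⟩ h
    apply Quotient.sound
    change QuotientGroup.leftRel _ n m
    rw [QuotientGroup.leftRel_apply]
    have h1 : (n : G) * b * (n : G)⁻¹ = (m : G) * b * (m : G)⁻¹ := congrArg Subtype.val h
    change (n : G)⁻¹ * (m : G) ∈ centralizer ({b} : Set G)
    rw [mem_centralizer_singleton_iff]
    have h2 : (n : G)⁻¹ * (m : G) * b = (n : G)⁻¹ * ((m : G) * b * (m : G)⁻¹) * m := by group
    rw [h2, ← h1]; group
  · rintro ⟨x, hx⟩
    obtain ⟨n, hn, rfl⟩ := mem_orb.1 (by simpa using hx)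
    exact ⟨QuotientGroup.mk (⟨n, hn⟩ : N), rfl⟩

/-- The scalar by which the orbit sum acts is an algebraic integer. -/
theorem isIntegral_omega [Finite G] (N : Subgroup G) [Fintype N] {χ : G → ℂ} (hχ : IsCharacter G χ)
    (hN : IsIrrCharacter N (fun n : N => χ n)) (b : G) :
    IsIntegral ℤ (((orb N b).card : ℂ) * χ b / χ 1) := by
  classical
  obtain ⟨d, ρ, rfl⟩ := hχ
  have hirr := H83.Gallagher.restrict_irreducible ρ N hN
  have hd := irr_one_ne_zero hN
  have hd' : ρ.character 1 ≠ 0 := by simpa using hd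
  have hNt : Nontrivial (Fin d → ℂ) := by
    rw [Representation.char_one] at hd'
    by_contra hcon
    rw [not_nontrivial_iff_subsingleton] at hcon
    apply hd'
    rw [Module.finrank_zero_of_subsingleton]; simp
  have hcomm : ∀ m : N, (∑ x ∈ orb N b, ρ x) * ρ (m : G) = ρ (m : G) * ∑ x ∈ orb N b, ρ x := by
    intro m
    rw [Finset.sum_mul, Finset.mul_sum]
    refine Finset.sum_bij' (fun x _ => (m : G)⁻¹ * x * m) (fun x _ => (m : G) * x * (m : G)⁻¹) ?_ ?_ ?_ ?_ ?_
    · intro x hx
      have := (conj_mem_orb (N.inv_mem m.2) (x := x) (a := b)).2 hx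
      rwa [inv_inv] at this
    · intro x hx
      exact (conj_mem_orb m.2).2 hx
    · intro x _; group
    · intro x _; group
    · intro x _
      rw [← map_mul, ← map_mul]
      congr 1
      group
  obtain ⟨μ, hμ⟩ := H31.CentralSec.schur_scalar (H83.Gallagher.resRep ρ N) hirr
    (∑ x ∈ orb N b, ρ x) (fun m => hcomm m)
  have h1 : IsIntegral ℤ μ := by
    apply H4.CenterIndex.isIntegral_of_comb ρ (fun x : orb N b => (x : G)) (fun _ => 1)
      (fun _ => isIntegral_one) μ
    rw [← hμ, ← Finset.sum_coe_sort (orb N b) (fun x => ρ x)]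
    exact Finset.sum_congr rfl fun x _ => one_smul _ _
  have h2 : ((orb N b).card : ℂ) * ρ.character b = μ * ρ.character 1 := by
    have h3 := congrArg (LinearMap.trace ℂ _) hμ
    rw [map_sum, map_smul, smul_eq_mul, LinearMap.trace_id] at h3
    rw [Representation.char_one, ← h3]
    have h4 : ∀ x ∈ orb N b, LinearMap.trace ℂ _ (ρ x) = ρ.character b := by
      intro x hx
      obtain ⟨n, hn, rfl⟩ := mem_orb.1 hx
      exact Representation.char_conj ρ b n
    rw [Finset.sum_congr rfl h4, Finset.sum_const, nsmul_eq_mul]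
  rw [h2, mul_div_assoc, div_self hd', mul_one]
  exact h1

/-- Multiplicativity. -/
theorem omega_mul [Finite G] (N : Subgroup G) [Fintype N] {χ : G → ℂ} (hχ : IsCharacter G χ)
    (hN : IsIrrCharacter N (fun n : N => χ n)) (a b : G) :
    (((orb N a).card : ℂ) * χ a / χ 1) * (((orb N b).card : ℂ) * χ b / χ 1) =
      ∑ x ∈ orb N a, ∑ y ∈ orb N b, χ (x * y) / χ 1 := by
  have hd' : χ 1 ≠ 0 := by simpa using irr_one_ne_zero hN
  have hNc : (Nat.card N : ℂ) ≠ 0 := card_ne_zero'
  have h1 : ∀ x, ∑ y ∈ orb N b, χ (x * y) / χ 1 =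
      ((orb N b).card : ℂ) * χ x * χ b / χ 1 / χ 1 := by
    intro x
    have h2 := sum_orb (N := N) b (fun y => χ (x * y))
    have h3 := avg_conj N hχ hN x b
    have h4 : ∑ n : N, χ (x * ((n : G) * b * (n : G)⁻¹)) = (Nat.card N : ℂ) * χ x * χ b / χ 1 := by
      rw [← h3]; field_simp
    rw [h4] at h2
    rw [← Finset.sum_div]
    have h5 : ∑ y ∈ orb N b, χ (x * y) = ((orb N b).card : ℂ) * χ x * χ b / χ 1 := by
      have : (Nat.card N : ℂ) * ∑ y ∈ orb N b, χ (x * y) = (Nat.card N : ℂ) * (((orb N b).card : ℂ) * χ x * χ b / χ 1) := by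
        rw [← h2]; ring
      exact mul_left_cancel₀ hNc this
    rw [h5]
  have h2 : ∀ x ∈ orb N a, ∑ y ∈ orb N b, χ (x * y) / χ 1 =
      ((orb N b).card : ℂ) * χ a * χ b / χ 1 / χ 1 := by
    intro x hx
    rw [h1]
    obtain ⟨n, hn, rfl⟩ := mem_orb.1 hx
    rw [isClassFunction_of_isCharacter hχ a n]
  rw [Finset.sum_congr rfl h2, Finset.sum_const, nsmul_eq_mul]
  field_simp

/-- Sums over products of orbits of `N`-invariant functions whose orbit sums are in the local ideal. -/
theorem sum_mem_locI (N : Subgroup G) [Fintype N] {M : Ideal AlgInt} [M.IsPrime] {F : G → ℂ}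
    (hF : ∀ n ∈ N, ∀ z, F (n * z * n⁻¹) = F z)
    (hM : ∀ z, MemLocalIdeal M (((orb N z).card : ℂ) * F z)) (a b : G) :
    MemLocalIdeal M (∑ x ∈ orb N a, ∑ y ∈ orb N b, F (x * y)) := by
  classical
  rw [← Finset.sum_product']
  let S := orb N a ×ˢ orb N b
  rw [← Finset.sum_fiberwise_of_maps_to (s := S) (t := S.image (fun z => orb N (z.1 * z.2)))
    (g := fun z => orb N (z.1 * z.2)) (fun z hz => Finset.mem_image_of_mem _ hz)]
  refine H20.Loc.locI_sum fun O hO => ?_
  obtain ⟨⟨x0, y0⟩, h0, rfl⟩ := Finset.mem_image.1 hO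
  simp only
  set z0 := x0 * y0 with hz0
  -- the fibres over the elements of the orbit
  let f : G → Finset (G × G) := fun z => S.filter (fun w => w.1 * w.2 = z)
  have hval : ∀ w ∈ S.filter (fun w => orb N (w.1 * w.2) = orb N z0), F (w.1 * w.2) = F z0 := by
    intro w hw
    have h1 := (Finset.mem_filter.1 hw).2
    obtain ⟨n, hn, h2⟩ := mem_orb.1 (orb_eq_iff.1 h1)
    rw [← h2, hF n hn]
  have hcard : (S.filter (fun w => orb N (w.1 * w.2) = orb N z0)).card = (orb N z0).card * (f z0).card := by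
    rw [Finset.card_eq_sum_card_fiberwise (f := fun w => w.1 * w.2) (t := orb N z0)]
    · rw [← smul_eq_mul, ← Finset.sum_const]
      refine Finset.sum_congr rfl fun z hz => ?_
      obtain ⟨n, hn, hz'⟩ := mem_orb.1 hz
      refine Finset.card_bij' (fun w _ => (n⁻¹ * w.1 * n, n⁻¹ * w.2 * n))
        (fun w _ => (n * w.1 * n⁻¹, n * w.2 * n⁻¹)) ?_ ?_ ?_ ?_
      · intro w hw
        obtain ⟨hw1, hw2⟩ := Finset.mem_filter.1 hw
        have hw3 := Finset.mem_product.1 (Finset.mem_filter.1 hw1).1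
        refine Finset.mem_filter.2 ⟨Finset.mem_product.2 ⟨?_, ?_⟩, ?_⟩
        · have := (conj_mem_orb (N.inv_mem hn) (x := w.1) (a := a)).2 hw3.1
          rwa [inv_inv] at this
        · have := (conj_mem_orb (N.inv_mem hn) (x := w.2) (a := b)).2 hw3.2
          rwa [inv_inv] at this
        · change n⁻¹ * w.1 * n * (n⁻¹ * w.2 * n) = z0
          have : n⁻¹ * w.1 * n * (n⁻¹ * w.2 * n) = n⁻¹ * (w.1 * w.2) * n := by group
          rw [this]
          have h5 : w.1 * w.2 = z := hw2
          rw [h5, ← hz']; group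
      · intro w hw
        obtain ⟨hw1, hw2⟩ := Finset.mem_filter.1 hw
        have hw3 := Finset.mem_product.1 hw1
        have h6 : n * w.1 * n⁻¹ * (n * w.2 * n⁻¹) = z := by
          have : n * w.1 * n⁻¹ * (n * w.2 * n⁻¹) = n * (w.1 * w.2) * n⁻¹ := by group
          rw [this]
          have h5 : w.1 * w.2 = z0 := hw2
          rw [h5, ← hz']
        refine Finset.mem_filter.2 ⟨Finset.mem_filter.2 ⟨Finset.mem_product.2 ⟨?_, ?_⟩, ?_⟩, ?_⟩
        · exact (conj_mem_orb hn).2 hw3.1
        · exact (conj_mem_orb hn).2 hw3.2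
        · change orb N (n * w.1 * n⁻¹ * (n * w.2 * n⁻¹)) = _
          rw [h6]; exact orb_eq_iff.2 hz
        · exact h6
      · intro w _
        ext <;> simp <;> group
      · intro w _
        ext <;> simp <;> group
    · intro w hw
      have h1 := (Finset.mem_filter.1 hw).2
      exact orb_eq_iff.1 h1
  rw [Finset.sum_congr rfl hval, Finset.sum_const, hcard, nsmul_eq_mul]
  have h7 : (((orb N z0).card * (f z0).card : ℕ) : ℂ) * F z0 =
      (((f z0).card : ℕ) : ℂ) * (((orb N z0).card : ℂ) * F z0) := by push_cast; ring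
  rw [h7]
  exact H20.Loc.locI_mul_left (H20.Loc.locR_natCast _) (hM z0)

end H84.OrbN
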