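import Cfsg.Agent.Lib.H81.Contrib

/-!
# Blocks with a character of large height have rank different from one
-/

set_option autoImplicit false
set_option linter.unusedSectionVars false
set_option linter.unusedVariables false
set_option linter.style.haveILetI false

open Cfsg H20.Loc H20.GA H20.Blk H20.DefGrp H20.Orth H20.Defect H20.Ind H20.Height
open scoped ComplexConjugate

namespace H84.QR1
open H18.CharBasic H18.CharOrtho H18.CharInd H81.Section H81.Contrib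

universe u
variable {G : Type u} [Group G] [Finite G]
variable {M : Ideal AlgInt}

theorem rank_ne_one (hM : IsPModular 2 M) {B : Set (IrrCharacter G)} (hB : IsPBlock M B) {n : ℕ}
    (hd : blockDefect 2 B = n) (hn : 4 ≤ n) {T : IrrCharacter G} (hT : T ∈ B)
    (hht : blockHeight 2 B (T : G → ℂ) = n - 2) : blockRank 2 B ≠ 1 := by
  classical
  letI := Fintype.ofFinite G
  letI := Fintype.ofFinite (IrrCharacter G)
  haveI := pm_isPrime hM
  intro hrk
  obtain ⟨Y, hY, hY0⟩ := exists_height_zero hM hB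
  have hU := isUnion_of_isPBlock hB
  obtain ⟨ι, _, e, hcard, hmem, hone, hexp⟩ := exists_onb (Vb 2 B)
  have hcard1 : Fintype.card ι = 1 := hcard.trans hrk
  obtain ⟨i0, hi0⟩ := Fintype.card_eq_one_iff.1 hcard1
  set e0 := e i0 with he0
  have hfr : Module.finrank ℂ (Vb 2 B) = 1 := hrk
  have hne : (⟨e0, hmem i0⟩ : Vb 2 B) ≠ 0 := by
    intro h
    have h1 : e0 = 0 := congrArg Subtype.val h
    have h2 := hone i0
    rw [← he0, h1, (H18.CharOrtho.inner_self_eq_zero (φ := (0 : G → ℂ))).2 rfl] at h2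
    exact zero_ne_one h2
  obtain ⟨k1, k2, k3⟩ := mem_Vb hM hU (hmem i0)
  rw [← he0] at k1 k2 k3
  have hspan : ∀ f ∈ Vb 2 B, f = classInner f e0 • e0 := by
    intro f hf
    obtain ⟨c, hc⟩ := (finrank_eq_one_iff_of_nonzero' _ hne).1 hfr ⟨f, hf⟩
    have h1 : c • e0 = f := congrArg Subtype.val hc
    have h2 : classInner f e0 = c := by
      rw [← h1, H18.CharOrtho.inner_smul_left, hone i0, mul_one]
    rw [h2, h1]
  -- coefficients
  let c : IrrCharacter G → ℂ := fun χ => classInner (χ : G → ℂ) e0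
  have hreg : ∀ χ ∈ B, reg 2 (χ : G → ℂ) = c χ • e0 := by
    intro χ hχ
    have h1 : reg 2 (χ : G → ℂ) ∈ Vb 2 B := by
      rw [← pRegularPart_eq]
      exact Submodule.subset_span ⟨χ, hχ, rfl⟩
    have h2 := hspan _ h1
    rw [inner_reg_comm, k2] at h2
    exact h2
  have hin : ∀ χ ∈ B, ∀ ψ : IrrCharacter G, classInner (reg 2 (χ : G → ℂ)) (ψ : G → ℂ) = c χ * conj (c ψ) := by
    intro χ hχ ψ
    rw [hreg χ hχ, H18.CharOrtho.inner_smul_left, ← H18.CharOrtho.inner_conj_symm]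
  -- parseval
  have hpar : (1 : ℂ) = ∑ ψ : IrrCharacter G, conj (c ψ) * c ψ := by
    rw [← hone i0, ← he0, parseval k1]
    refine Finset.sum_congr rfl fun ψ _ => ?_
    show _ = conj (classInner (ψ : G → ℂ) e0) * (classInner (ψ : G → ℂ) e0)
    rw [H18.CharOrtho.inner_conj_symm, H18.CharOrtho.inner_conj_symm]
  have hTY : T ≠ Y := by
    rintro rfl
    rw [hY0] at hht
    omega
  have hpar2 : ‖c T‖ ^ 2 + ‖c Y‖ ^ 2 ≤ 1 := by
    have h1 : (1 : ℝ) = ∑ ψ : IrrCharacter G, ‖c ψ‖ ^ 2 := by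
      have h2 : ((1 : ℝ) : ℂ) = ((∑ ψ : IrrCharacter G, ‖c ψ‖ ^ 2 : ℝ) : ℂ) := by
        rw [Complex.ofReal_one, hpar]
        push_cast
        refine Finset.sum_congr rfl fun ψ _ => ?_
        rw [← Complex.mul_conj', mul_comm]
      exact_mod_cast h2
    rw [h1, ← Finset.sum_pair (f := fun ψ : IrrCharacter G => ‖c ψ‖ ^ 2) hTY]
    exact Finset.sum_le_univ_sum_of_nonneg (fun ψ => by positivity)
  obtain ⟨aT, hT1, -, -, -, -, -, -⟩ := H81.RegMat.exists_row hM hB hT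
  obtain ⟨aY, hY1, -, -, hY4, -, hY6, -⟩ := H81.RegMat.exists_row hM hB hY
  rw [hd] at hT1 hY1
  have eTT : ((aT T : ℤ) : ℝ) = 2 ^ n * ‖c T‖ ^ 2 := by
    have h1 := hT1 T
    rw [hin T hT T, Complex.mul_conj'] at h1
    exact_mod_cast h1.symm
  have eYY : ((aY Y : ℤ) : ℝ) = 2 ^ n * ‖c Y‖ ^ 2 := by
    have h1 := hY1 Y
    rw [hin Y hY Y, Complex.mul_conj'] at h1
    exact_mod_cast h1.symm
  have eYT : (((aY T) ^ 2 : ℤ) : ℝ) = (2 ^ n * ‖c T‖ ^ 2) * (2 ^ n * ‖c Y‖ ^ 2) := by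
    have h1 := hY1 T
    rw [hin Y hY T] at h1
    have h2 : ‖((aY T : ℤ) : ℂ)‖ ^ 2 = (2 ^ n * ‖c T‖ ^ 2) * (2 ^ n * ‖c Y‖ ^ 2) := by
      rw [← h1, norm_mul, norm_mul, norm_pow, RCLike.norm_conj]
      simp only [Nat.cast_ofNat, Complex.norm_ofNat]
      ring
    rw [← h2, Complex.norm_intCast]
    push_cast
    rw [sq_abs]
  have hprod : aT T * aY Y = aY T ^ 2 := by
    have h1 : ((aT T * aY Y : ℤ) : ℝ) = ((aY T ^ 2 : ℤ) : ℝ) := by
      rw [eYT, ← eTT, ← eYY]; push_cast; ring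
    exact_mod_cast h1
  have hsum : aT T + aY Y ≤ 2 ^ n := by
    have h1 : ((aT T + aY Y : ℤ) : ℝ) ≤ ((2 ^ n : ℤ) : ℝ) := by
      push_cast
      rw [eTT, eYY, ← mul_add]
      have h2 : (0 : ℝ) < 2 ^ n := by positivity
      nlinarith
    exact_mod_cast h1
  have hodd : ¬ (2 : ℤ) ∣ aY Y := by
    have h1 := hY4 Y hY hY0
    rw [hY0] at h1
    simpa using h1
  have hY0' : 0 ≤ aY Y := by
    have h1 : (0 : ℝ) ≤ ((aY Y : ℤ) : ℝ) := by rw [eYY]; positivity
    exact_mod_cast h1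
  have hYpos : 1 ≤ aY Y := by
    rcases hY0'.lt_or_eq with h | h
    · exact h
    · exact absurd (h ▸ dvd_zero 2) hodd
  have hT0' : 0 ≤ aT T := by
    have h1 : (0 : ℝ) ≤ ((aT T : ℤ) : ℝ) := by rw [eTT]; positivity
    exact_mod_cast h1
  obtain ⟨h6, h7⟩ := hY6 T hT hY0
  rw [hht] at h6 h7
  have h6' : (2 : ℤ) ^ (n - 2) ∣ aY T := by simpa using h6
  have h7' : aY T ≠ 0 := by
    intro h
    apply h7
    rw [h]; exact dvd_zero _
  have h8 : ((2 : ℤ) ^ (n - 2)) ^ 2 ∣ aT T * aY Y := by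
    rw [hprod]; exact pow_dvd_pow_of_dvd h6' 2
  have h9 : IsCoprime (((2 : ℤ) ^ (n - 2)) ^ 2) (aY Y) := by
    apply IsCoprime.pow_left
    apply IsCoprime.pow_left
    exact (Int.prime_two.coprime_iff_not_dvd).2 hodd
  have h10 := h9.dvd_of_dvd_mul_right h8
  have hTpos : 0 < aT T := by
    rcases hT0'.lt_or_eq with h | h
    · exact h
    · exfalso
      rw [← h, zero_mul] at hprod
      exact h7' (pow_eq_zero_iff (two_ne_zero) |>.1 hprod.symm)
  have h11 := Int.le_of_dvd hTpos h10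
  have h12 : (2 : ℤ) ^ n ≤ ((2 : ℤ) ^ (n - 2)) ^ 2 := by
    rw [← pow_mul]
    exact pow_le_pow_right₀ (by norm_num) (by omega)
  omega

end H84.QR1
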